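import Mathlib

set_option autoImplicit false

/-! # S3413: a group with the commuting graph of `M11` is `M11`

Package statements.  The abstract half: a group of order `7920` containing an element `x` whose
centralizer has exactly `11` elements is simple.  (Then S0420 identifies it.) -/

namespace Cfsg.Agent.Lib.Helper93.CG11

universe u

/-- [CYC] a permutation group on `11` points whose order is divisible by `11` contains an element
commuting with exactly `11` elements of the group (an `11`-cycle: its centralizer in the whole
symmetric group is generated by it). -/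
def PkgCyc : Prop :=
  ∀ (Ω : Type u) [Fintype Ω] [DecidableEq Ω] (A : Subgroup (Equiv.Perm Ω)),
    Fintype.card Ω = 11 → 11 ∣ Nat.card A →
    ∃ g : A, Nat.card {a : A // a * g = g * a} = 11

/-- [COP] a normal subgroup of order prime to `11` is trivial. -/
def PkgCop : Prop :=
  ∀ {G : Type u} [Group G] [Finite G] (x : G), Nat.card G = 7920 →
    Nat.card {h : G // h * x = x * h} = 11 →
    ∀ N : Subgroup G, N.Normal → ¬ 11 ∣ Nat.card N → N = ⊥

/-- [NORM] the normalizer of `⟨x⟩` has order `55`. -/
def PkgNorm : Prop :=
  ∀ {G : Type u} [Group G] [Finite G] (x : G), Nat.card G = 7920 →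
    Nat.card {h : G // h * x = x * h} = 11 →
    Nat.card (Subgroup.normalizer (Subgroup.zpowers x : Set G)) = 55

/-- [DVD] a normal subgroup of order divisible by `11` is everything. -/
def PkgDvd : Prop :=
  ∀ {G : Type u} [Group G] [Finite G] (x : G), Nat.card G = 7920 →
    Nat.card {h : G // h * x = x * h} = 11 →
    ∀ N : Subgroup G, N.Normal → 11 ∣ Nat.card N → N = ⊤

/-- [SIMPLE] order `7920` and an element with centralizer of order `11` force simplicity. -/
def PkgSimple : Prop :=
  ∀ {G : Type u} [Group G] [Finite G] (x : G), Nat.card G = 7920 →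
    Nat.card {h : G // h * x = x * h} = 11 → IsSimpleGroup G

theorem pkgSimple_of (hC : PkgCop.{u}) (hD : PkgDvd.{u}) : PkgSimple.{u} := by
  intro G _ _ x hG hx
  have hnt : Nontrivial G := by
    rw [← Finite.one_lt_card_iff_nontrivial, hG]; norm_num
  refine { exists_pair_ne := hnt.exists_pair_ne, eq_bot_or_eq_top_of_normal := ?_ }
  intro N hN
  by_cases h11 : 11 ∣ Nat.card N
  · exact Or.inr (hD x hG hx N hN h11)
  · exact Or.inl (hC x hG hx N hN h11)

end Cfsg.Agent.Lib.Helper93.CG11
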