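import Mathlib
import Cfsg.Prelude.Def_Spor_Mathieu
import Cfsg.Agent.Lib.Helper93.CG11.Defs
import Cfsg.Agent.Lib.Helper93.M11U.Main
import Cfsg.Agent.Lib.Helper93.M11U.Y0Iso
import Cfsg.Agent.Lib.Helper86.MathieuSmall
import Cfsg.Agent.S0420
import Cfsg.Agent.S0387
import Cfsg.Agent.S0388

set_option autoImplicit false

/-! # S3413 from the packages -/

namespace Cfsg.Agent.Lib.Helper93.CG11

open Cfsg
open scoped Pointwise

universe u

/-- the concrete `Spor.M11` is the stabilizer (inside `M24`) of the dodecad of squares and of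
the residue `0` -/
noncomputable def sporM11Iso :
    ↥Spor.M11 ≃* ↥(MulAction.stabilizer Cfsg.M24 Spor.squareDodecad ⊓
      MulAction.stabilizer Cfsg.M24 (some 0 : GolayPt)) :=
  { toFun := fun g => ⟨⟨g.1, (Cfsg.Agent.Lib.Helper86.mem_M11_iff.1 g.2).1⟩,
      ⟨MulAction.mem_stabilizer_iff.2 (Cfsg.Agent.Lib.Helper86.mem_M11_iff.1 g.2).2.1,
        MulAction.mem_stabilizer_iff.2 (Cfsg.Agent.Lib.Helper86.mem_M11_iff.1 g.2).2.2⟩⟩
    invFun := fun g => ⟨g.1.1, Cfsg.Agent.Lib.Helper86.mem_M11_iff.2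
      ⟨g.1.2, MulAction.mem_stabilizer_iff.1 g.2.1, MulAction.mem_stabilizer_iff.1 g.2.2⟩⟩
    left_inv := fun _ => rfl
    right_inv := fun _ => rfl
    map_mul' := fun _ _ => rfl }

/-- transfer of "an element commuting with exactly `11` elements" along an isomorphism -/
theorem exists_cent11_of_mulEquiv {G : Type*} {G' : Type*} [Group G] [Group G'] (e : G ≃* G')
    (h : ∃ g' : G', Nat.card {a : G' // a * g' = g' * a} = 11) :
    ∃ g : G, Nat.card {a : G // a * g = g * a} = 11 := by
  obtain ⟨g', hg'⟩ := h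
  refine ⟨e.symm g', ?_⟩
  rw [← hg']
  refine Nat.card_congr (Equiv.subtypeEquiv e.toEquiv ?_)
  intro a
  constructor
  · intro h1
    have h2 := congrArg e h1
    simpa using h2
  · intro h1
    apply e.injective
    simpa using h1

/-- the concrete `M11` has an element commuting with exactly `11` elements -/
theorem exists_cent11_sporM11 (hCyc : PkgCyc.{0}) :
    ∃ g : ↥Spor.M11, Nat.card {a : ↥Spor.M11 // a * g = g * a} = 11 := by
  have hs := Cfsg.Agent.S0388.result Spor.squareDodecad Cfsg.Agent.Lib.Helper86.squareDodecad_mem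
    (some 0 : GolayPt) Cfsg.Agent.Lib.Helper86.zero_mem_squareDodecad
  have hc := Cfsg.Agent.S0387.result Spor.squareDodecad Cfsg.Agent.Lib.Helper86.squareDodecad_mem
    (some 0 : GolayPt) Cfsg.Agent.Lib.Helper86.zero_mem_squareDodecad
  obtain ⟨Ω, _, _, B, hΩ, hB, ⟨e⟩⟩ :=
    (Cfsg.Agent.Lib.Helper93.M11U.pkgMain_of_iso Cfsg.Agent.Lib.Helper93.M11U.pkgY0Iso :
      Cfsg.Agent.Lib.Helper93.M11U.PkgMain.{0}) _ hs hc
  have hcard : Nat.card ↥(Cfsg.setSystemAut B) = 7920 := by
    rw [← Nat.card_congr e.toEquiv, hc]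
  have h11 : 11 ∣ Nat.card ↥(Cfsg.setSystemAut B) := by rw [hcard]; norm_num
  exact exists_cent11_of_mulEquiv (sporM11Iso.trans e) (hCyc Ω (Cfsg.setSystemAut B) hΩ h11)

/-- cardinality of a subtype containing a point, in terms of the subtype of the complement of
that point -/
theorem card_subtype_ne_add_one {α : Type*} [Finite α] (a : α) (P : α → Prop) (ha : P a) :
    Nat.card {h : α // P h} = Nat.card {h : {h : α // h ≠ a} // P h.1} + 1 := by
  classical
  have e : {h : α // P h} ≃ Option {h : {h : α // h ≠ a} // P h.1} :=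
    { toFun := fun h => if hh : h.1 = a then none else some ⟨⟨h.1, hh⟩, h.2⟩
      invFun := fun o => match o with
        | none => ⟨a, ha⟩
        | some h => ⟨h.1.1, h.2⟩
      left_inv := by
        intro h
        by_cases hh : h.1 = a
        · simp only [hh, dif_pos]
          exact Subtype.ext hh.symm
        · simp only [hh, dif_neg, not_false_eq_true]
      right_inv := by
        intro o
        cases o with
        | none => simp
        | some h =>
          have hh : h.1.1 ≠ a := h.1.2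
          simp only [hh, dif_neg, not_false_eq_true] }
  rw [Nat.card_congr e, Finite.card_option]

/-- **S3413 from the packages** -/
theorem s3413_of (hCyc : PkgCyc.{0}) (hS : PkgSimple.{u}) {H : Type u} [Group H] [Finite H]
    (f : {h : H // h ≠ 1} ≃ {g : ↥Cfsg.Spor.M11 // g ≠ 1})
    (hf : ∀ x y : {h : H // h ≠ 1}, (x : H) * y = y * x ↔
      ((f x) : ↥Cfsg.Spor.M11) * (f y) = (f y) * (f x)) :
    Nonempty (H ≃* ↥Cfsg.Spor.M11) := by
  have hM : Nat.card ↥Spor.M11 = 7920 := Cfsg.Agent.Lib.Helper86.card_M11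
  have hMfin : Finite ↥Spor.M11 := Nat.finite_of_card_ne_zero (by rw [hM]; norm_num)
  -- the order of `H`
  have hH : Nat.card H = 7920 := by
    have h1 := card_subtype_ne_add_one (1 : H) (fun _ => True) trivial
    have h2 := card_subtype_ne_add_one (1 : ↥Spor.M11) (fun _ => True) trivial
    have h3 : Nat.card {h : {h : H // h ≠ 1} // True} =
        Nat.card {h : {h : ↥Spor.M11 // h ≠ 1} // True} :=
      Nat.card_congr (Equiv.subtypeEquiv f (fun _ => Iff.rfl))
    have h4 : Nat.card {h : H // True} = Nat.card H :=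
      Nat.card_congr (Equiv.subtypeUnivEquiv (fun _ => trivial))
    have h5 : Nat.card {h : ↥Spor.M11 // True} = Nat.card ↥Spor.M11 :=
      Nat.card_congr (Equiv.subtypeUnivEquiv (fun _ => trivial))
    omega
  -- an element of `M11` commuting with exactly `11` elements
  obtain ⟨g₀, hg₀⟩ := exists_cent11_sporM11 hCyc
  have hg₀1 : g₀ ≠ 1 := by
    rintro rfl
    have h5 : Nat.card {a : ↥Spor.M11 // a * 1 = 1 * a} = Nat.card ↥Spor.M11 :=
      Nat.card_congr (Equiv.subtypeUnivEquiv (fun a => by simp))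
    omega
  -- its preimage
  obtain ⟨x₀, hx₀⟩ : ∃ x₀ : {h : H // h ≠ 1}, f x₀ = ⟨g₀, hg₀1⟩ := f.surjective _
  have hx : Nat.card {h : H // h * x₀.1 = x₀.1 * h} = 11 := by
    have h1 := card_subtype_ne_add_one (1 : H) (fun h => h * x₀.1 = x₀.1 * h) (by simp)
    have h2 := card_subtype_ne_add_one (1 : ↥Spor.M11) (fun a => a * g₀ = g₀ * a) (by simp)
    have h3 : Nat.card {h : {h : H // h ≠ 1} // h.1 * x₀.1 = x₀.1 * h.1} =
        Nat.card {h : {h : ↥Spor.M11 // h ≠ 1} // h.1 * g₀ = g₀ * h.1} := by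
      refine Nat.card_congr (Equiv.subtypeEquiv f ?_)
      intro a
      have h4 := hf a x₀
      rw [hx₀] at h4
      exact h4
    omega
  -- simplicity and identification
  have hsimple : IsSimpleGroup H := hS x₀.1 hH hx
  obtain ⟨e⟩ := Cfsg.Agent.S0420.result (G := H) ⟨hsimple, hH⟩ Spor.squareDodecad
    Cfsg.Agent.Lib.Helper86.squareDodecad_mem (some 0 : GolayPt)
    Cfsg.Agent.Lib.Helper86.zero_mem_squareDodecad
  exact ⟨e.trans sporM11Iso.symm⟩

end Cfsg.Agent.Lib.Helper93.CG11
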