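import Mathlib
import Cfsg.Agent.Lib.Helper93.CG11.Defs

set_option autoImplicit false

/-! # S3413, package [CYC] -/

namespace Cfsg.Agent.Lib.Helper93.CG11

universe u

theorem pkgCyc : PkgCyc.{u} := by
  intro Ω _ _ A hΩ h11
  classical
  have : Fact (Nat.Prime 11) := ⟨by norm_num⟩
  obtain ⟨g, hg⟩ := exists_prime_orderOf_dvd_card' 11 h11
  refine ⟨g, ?_⟩
  have hgo : orderOf (g : Equiv.Perm Ω) = 11 := by rw [Subgroup.orderOf_coe]; exact hg
  have hcyc : (g : Equiv.Perm Ω).IsCycle :=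
    Equiv.Perm.isCycle_of_prime_order'' (by rw [hΩ]; norm_num) (by rw [hgo, hΩ])
  have hsupp : (g : Equiv.Perm Ω).support = Finset.univ := by
    apply Finset.eq_univ_of_card
    rw [← hcyc.orderOf, hgo, hΩ]
  have hmove : ∀ ω : Ω, (g : Equiv.Perm Ω) ω ≠ ω := by
    intro ω
    rw [← Equiv.Perm.mem_support, hsupp]; exact Finset.mem_univ _
  have key : ∀ a : A, a * g = g * a → a ∈ Subgroup.zpowers g := by
    intro a ha
    obtain ⟨ω₀⟩ : Nonempty Ω := by
      rw [← Fintype.card_pos_iff, hΩ]; norm_num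
    obtain ⟨i, hi⟩ := hcyc.exists_zpow_eq (hmove ω₀) (hmove ((a : Equiv.Perm Ω) ω₀))
    refine Subgroup.mem_zpowers_iff.mpr ⟨i, ?_⟩
    apply Subtype.ext
    rw [Subgroup.coe_zpow]
    apply Equiv.ext
    intro ω
    obtain ⟨j, hj⟩ := hcyc.exists_zpow_eq (hmove ω₀) (hmove ω)
    have hc : Commute (a : Equiv.Perm Ω) (g : Equiv.Perm Ω) := by
      have h1 := congrArg Subtype.val ha
      exact h1
    have h2 : (a : Equiv.Perm Ω) (((g : Equiv.Perm Ω) ^ j) ω₀) =
        ((g : Equiv.Perm Ω) ^ j) ((a : Equiv.Perm Ω) ω₀) := by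
      have h3 := congrArg (fun σ : Equiv.Perm Ω => σ ω₀) (hc.zpow_right j).eq
      simpa using h3
    have h4 : ((g : Equiv.Perm Ω) ^ i) (((g : Equiv.Perm Ω) ^ j) ω₀) =
        ((g : Equiv.Perm Ω) ^ j) (((g : Equiv.Perm Ω) ^ i) ω₀) := by
      rw [← Equiv.Perm.mul_apply, ← Equiv.Perm.mul_apply, ← zpow_add, ← zpow_add, add_comm]
    rw [← hj, h4, hi, h2]
  have hcard : Nat.card {a : A // a * g = g * a} = Nat.card (Subgroup.zpowers g) := by
    refine Nat.card_congr (Equiv.subtypeEquivRight ?_)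
    intro a
    constructor
    · exact key a
    · intro ha
      obtain ⟨k, rfl⟩ := Subgroup.mem_zpowers_iff.mp ha
      exact (Commute.zpow_self g k).eq
  rw [hcard, Nat.card_zpowers, hg]

end Cfsg.Agent.Lib.Helper93.CG11
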