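import Mathlib
import Cfsg.Agent.Lib.Helper93.CG11.Defs

set_option autoImplicit false

/-! # S3413, package [NORM] -/

namespace Cfsg.Agent.Lib.Helper93.CG11

universe u

/-- basic facts: `x` has order `11` and generates its centralizer -/
theorem cg_basic {G : Type u} [Group G] [Finite G] (x : G) (hG : Nat.card G = 7920)
    (hx : Nat.card {h : G // h * x = x * h} = 11) :
    orderOf x = 11 ∧ Subgroup.zpowers x = Subgroup.centralizer {x} ∧
      Nat.card (Subgroup.centralizer ({x} : Set G)) = 11 := by
  have hc : Nat.card (Subgroup.centralizer ({x} : Set G)) = 11 := by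
    rw [← hx]
    refine Nat.card_congr (Equiv.subtypeEquivRight ?_)
    intro a
    exact Subgroup.mem_centralizer_singleton_iff
  have hxmem : x ∈ Subgroup.centralizer ({x} : Set G) :=
    Subgroup.mem_centralizer_singleton_iff.mpr rfl
  have hdvd : orderOf x ∣ 11 := by
    have h1 := orderOf_dvd_natCard (⟨x, hxmem⟩ : Subgroup.centralizer ({x} : Set G))
    rw [hc, Subgroup.orderOf_mk] at h1
    exact h1
  have hne : orderOf x ≠ 1 := by
    intro h1
    rw [orderOf_eq_one_iff] at h1
    subst h1
    have h2 : Nat.card {h : G // h * 1 = 1 * h} = Nat.card G :=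
      Nat.card_congr (Equiv.subtypeUnivEquiv (fun a => by simp))
    omega
  have ho : orderOf x = 11 := by
    rcases (Nat.dvd_prime (by norm_num : Nat.Prime 11)).mp hdvd with h | h
    · exact absurd h hne
    · exact h
  refine ⟨ho, ?_, hc⟩
  apply Subgroup.eq_of_le_of_card_ge
  · rw [Subgroup.zpowers_le]; exact hxmem
  · rw [Nat.card_zpowers, ho, hc]

theorem cg_centralizer_zpowers {G : Type u} [Group G] (x : G) :
    Subgroup.centralizer (Subgroup.zpowers x : Set G) = Subgroup.centralizer {x} := by
  ext a
  rw [Subgroup.mem_centralizer_iff, Subgroup.mem_centralizer_singleton_iff]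
  constructor
  · intro h
    exact (h x (Subgroup.mem_zpowers x)).symm
  · intro h y hy
    obtain ⟨k, rfl⟩ := Subgroup.mem_zpowers_iff.mp hy
    have hc : Commute x a := h.symm
    exact (hc.zpow_left k).eq

theorem pkgNorm : PkgNorm.{u} := by
  intro G _ _ x hG hx
  obtain ⟨ho, hz, hc⟩ := cg_basic x hG hx
  have : Fact (Nat.Prime 11) := ⟨by norm_num⟩
  have hPcard : Nat.card (Subgroup.zpowers x) = 11 := by rw [Nat.card_zpowers, ho]
  have hcP : Nat.card (Subgroup.centralizer (Subgroup.zpowers x : Set G)) = 11 := by
    rw [cg_centralizer_zpowers, hc]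
  -- the N/C theorem
  have hker := Subgroup.normalizerMonoidHom_ker (Subgroup.zpowers x)
  have hkercard : Nat.card (Subgroup.normalizerMonoidHom (Subgroup.zpowers x)).ker = 11 := by
    rw [hker, ← hcP]
    exact Nat.card_congr
      (Subgroup.subgroupOfEquivOfLe (Subgroup.centralizer_le_normalizer _)).toEquiv
  have hrange : Nat.card (Subgroup.normalizerMonoidHom (Subgroup.zpowers x)).range ∣ 10 := by
    have h1 : Nat.card (Subgroup.normalizerMonoidHom (Subgroup.zpowers x)).range ∣
        Nat.card (MulAut (Subgroup.zpowers x)) := Subgroup.card_subgroup_dvd_card _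
    have h2 : Nat.card (MulAut (Subgroup.zpowers x)) = 10 := by
      rw [IsCyclic.card_mulAut, hPcard]
      decide
    rwa [h2] at h1
  have hcard1 : Nat.card (Subgroup.normalizer (Subgroup.zpowers x : Set G)) =
      Nat.card (Subgroup.normalizerMonoidHom (Subgroup.zpowers x)).range * 11 := by
    rw [← hkercard,
      Subgroup.card_eq_card_quotient_mul_card_subgroup
        (Subgroup.normalizerMonoidHom (Subgroup.zpowers x)).ker]
    congr 1
    exact Nat.card_congr (QuotientGroup.quotientKerEquivRange _).toEquiv
  -- Sylow count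
  have hfac : (Nat.card G).factorization 11 = 1 := by
    rw [hG]
    have h1 : (7920 : ℕ) = 11 * 720 := by norm_num
    rw [h1, Nat.factorization_mul (by norm_num) (by norm_num)]
    simp [Nat.Prime.factorization_self (by norm_num : Nat.Prime 11),
      Nat.factorization_eq_zero_of_not_dvd (by norm_num : ¬ 11 ∣ 720)]
  let P : Sylow 11 G := Sylow.ofCard (Subgroup.zpowers x) (by rw [hPcard, hfac, pow_one])
  have h1 : Nat.card (Sylow 11 G) =
      (Subgroup.normalizer (Subgroup.zpowers x : Set G)).index :=
    Sylow.card_eq_index_normalizer P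
  have h2 : Nat.card (Sylow 11 G) ≡ 1 [MOD 11] := card_sylow_modEq_one 11 G
  rw [h1] at h2
  have h3 := Subgroup.card_mul_index (Subgroup.normalizer (Subgroup.zpowers x : Set G))
  rw [hG, hcard1] at h3
  generalize (Subgroup.normalizer (Subgroup.zpowers x : Set G)).index = i at h2 h3
  generalize Nat.card (Subgroup.normalizerMonoidHom (Subgroup.zpowers x)).range = r at hrange h3 hcard1
  rw [hcard1]
  have hr : r ≤ 10 := Nat.le_of_dvd (by norm_num) hrange
  unfold Nat.ModEq at h2
  interval_cases r <;> omega

end Cfsg.Agent.Lib.Helper93.CG11
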